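import Mathlib
import Cfsg.Agent.Lib.Helper50.HUPT.Defs

/-!
# HUPT project (S3360): package [SCAL]
-/

set_option autoImplicit false

universe u v

namespace Cfsg.Agent.Lib.Helper90.HUPT

open Cfsg.Agent.Lib.Helper49.HUP (Irr)
open Cfsg.Agent.Lib.Helper50.HUPT

theorem pkgScal (hAbn : PkgAbn.{u, v}) : PkgScal.{u, v} := by
  intro q _ V _ _ _ _ G _ _ ρ hinj hTr hNI hcard A hAn hAb a ha
  obtain ⟨hcyc, hfld, -⟩ := hAbn ρ hinj hTr A hAn hAb
  have hq : q.Prime := Fact.out
  have hnirr : ¬ Irr ρ A := fun h => hNI ⟨A, hAn, hcyc, h⟩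
  unfold Irr at hnirr
  push_neg at hnirr
  obtain ⟨W, hWinv, hWbot, hWtop⟩ := hnirr
  have hWcard : Nat.card W = q := by
    have hdvd : Nat.card W ∣ q ^ 2 := by
      rw [← hcard]
      exact AddSubgroup.card_addSubgroup_dvd_card W.toAddSubgroup
    obtain ⟨k, hk, hkeq⟩ := (Nat.dvd_prime_pow hq).1 hdvd
    interval_cases k
    · exfalso
      apply hWbot
      have hsub : Subsingleton W := (Nat.card_eq_one_iff_unique.mp (by simpa using hkeq)).1
      rw [eq_bot_iff]
      intro x hx
      have : (⟨x, hx⟩ : W) = 0 := Subsingleton.elim _ _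
      simpa using congrArg Subtype.val this
    · simpa using hkeq
    · exfalso
      apply hWtop
      have h1 : W.toAddSubgroup = ⊤ := by
        apply (AddSubgroup.card_eq_iff_eq_top _).mp
        rw [hcard]
        exact hkeq
      rw [eq_top_iff]
      intro x _
      have : x ∈ W.toAddSubgroup := by rw [h1]; trivial
      exact this
  obtain ⟨w₀, hw₀W, hw₀⟩ := (Submodule.ne_bot_iff W).mp hWbot
  let ι : ZMod q → W := fun c => ⟨c • w₀, W.smul_mem c hw₀W⟩
  have hιinj : Function.Injective ι := by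
    intro c c' h
    have h' : c • w₀ = c' • w₀ := congrArg Subtype.val h
    have h2 : (c - c') • w₀ = 0 := by rw [sub_smul, h', sub_self]
    rcases smul_eq_zero.mp h2 with h0 | h0
    · exact sub_eq_zero.mp h0
    · exact absurd h0 hw₀
  have hιsurj : Function.Surjective ι := by
    have hb := (Nat.bijective_iff_injective_and_card ι).mpr
      ⟨hιinj, by rw [Nat.card_zmod, hWcard]⟩
    exact hb.2
  obtain ⟨c, hc⟩ := hιsurj ⟨ρ a w₀, hWinv a ha w₀ hw₀W⟩
  have hc' : c • w₀ = ρ a w₀ := congrArg Subtype.val hc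
  refine ⟨c, ?_⟩
  have hfK : toE ρ a - c • (1 : Module.End (ZMod q) V) ∈ KA ρ A := by
    apply sub_mem
    · exact Algebra.subset_adjoin (Set.mem_image_of_mem _ ha)
    · exact Subalgebra.smul_mem _ (one_mem _) c
  have hf0 : toE ρ a - c • (1 : Module.End (ZMod q) V) = 0 := by
    by_contra hne
    have hinjf := hfld.2 _ hfK hne
    have h3 : (toE ρ a - c • (1 : Module.End (ZMod q) V)) w₀ =
        (toE ρ a - c • (1 : Module.End (ZMod q) V)) 0 := by
      rw [map_zero]
      simp [toE, hc']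
    exact hw₀ (hinjf h3)
  intro v
  have h4 := congrArg (fun f : Module.End (ZMod q) V => f v) hf0
  simp [toE] at h4
  exact sub_eq_zero.mp h4

end Cfsg.Agent.Lib.Helper90.HUPT
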