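import Mathlib
import Cfsg.Agent.Lib.Helper50.HUPT.Defs

/-!
# HUPT project (S3360): package [TWOZ]
-/

set_option autoImplicit false

universe u v

namespace Cfsg.Agent.Lib.Helper90.HUPT

open Cfsg.Agent.Lib.Helper50.HUPT

theorem pkgTwoZ (hScal : PkgScal.{u, v}) : PkgTwoZ.{u, v} := by
  intro q _ V _ _ _ _ G _ _ ρ hinj hTr hNI hcard
  have hq : q.Prime := Fact.out
  have hAb : Ab (Subgroup.center G) := by
    intro a ha b hb
    exact (Subgroup.mem_center_iff.mp ha b).symm
  have hS : ∀ z : Subgroup.center G, ∃ c : ZMod q, ∀ v : V, ρ (z : G) v = c • v :=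
    fun z => hScal ρ hinj hTr hNI hcard (Subgroup.center G) inferInstance hAb z z.2
  obtain ⟨v₀, hv₀⟩ := exists_ne (0 : V)
  have huniq : ∀ c c' : ZMod q, c • v₀ = c' • v₀ → c = c' := by
    intro c c' h
    have h2 : (c - c') • v₀ = 0 := by rw [sub_smul, h, sub_self]
    rcases smul_eq_zero.mp h2 with h0 | h0
    · exact sub_eq_zero.mp h0
    · exact absurd h0 hv₀
  let f : Subgroup.center G →* ZMod q :=
    { toFun := fun z => Classical.choose (hS z)
      map_one' := by
        apply huniq
        rw [← Classical.choose_spec (hS 1) v₀]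
        simp
      map_mul' := by
        intro z z'
        apply huniq
        rw [← Classical.choose_spec (hS (z * z')) v₀, mul_smul,
          ← Classical.choose_spec (hS z') v₀, ← Classical.choose_spec (hS z) (ρ (z' : G) v₀)]
        simp }
  have hf : ∀ (z : Subgroup.center G) (v : V), ρ (z : G) v = f z • v :=
    fun z v => Classical.choose_spec (hS z) v
  have hfinj : Function.Injective f := by
    intro z z' h
    apply Subtype.ext
    apply hinj
    ext v
    rw [hf z v, hf z' v, h]
  refine ⟨isCyclic_of_subgroup_isDomain f hfinj, ?_⟩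
  have hginj : Function.Injective f.toHomUnits := by
    intro z z' h
    apply hfinj
    have := congrArg (fun u : (ZMod q)ˣ => (u : ZMod q)) h
    simpa [MonoidHom.coe_toHomUnits] using this
  have hdvd := Subgroup.card_dvd_of_injective f.toHomUnits hginj
  rw [Nat.card_eq_fintype_card (α := (ZMod q)ˣ), ZMod.card_units] at hdvd
  exact hdvd

end Cfsg.Agent.Lib.Helper90.HUPT
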